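import Cfsg.Agent.H347.HX.G23.Main
import Cfsg.Agent.H210.TC.Row

/-!
# S2464, the row `G₂(3)` (helper347)

In `G₂(3)` all elements of order 7 are conjugate and every nonidentity element is the product of two of them:
`row3_g2_three : Row3 G₂(3)`.
-/

set_option autoImplicit false
set_option maxRecDepth 100000
set_option Elab.async false

namespace Cfsg.Agent.H347.HX.G23

open Cfsg.Agent.H210.TC

/-- `x = α * β`, `α ^ 7 = β ^ 7 = 1`, both move the point 0 -/
def sev (X : ℕ → ℕ) (α : List ℕ) : Bool :=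
  bif six X α 7 7 then
    bif Nat.beq (ap fl α 0) 0 then false else (bif Nat.beq (ap fl α.reverse (X 0)) 0 then false else true)
  else false

theorem of_sev {X : ℕ → ℕ} {x : A} (hX : Rp X x) {α : List ℕ} (h : sev X α = true) :
    ∃ a b : A, x = a * b ∧ a ^ 7 = 1 ∧ a ≠ 1 ∧ b ^ 7 = 1 ∧ b ≠ 1 := by
  unfold sev at h
  rcases h0 : six X α 7 7 with _ | _
  · rw [h0, cond_false] at h; cases h
  rw [h0, cond_true] at h
  rcases h2 : Nat.beq (ap fl α 0) 0 with _ | _
  swap
  · rw [h2, cond_true] at h; cases h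
  rw [h2, cond_false] at h
  rcases h3 : Nat.beq (ap fl α.reverse (X 0)) 0 with _ | _
  swap
  · rw [h3, cond_true] at h; cases h
  unfold six at h0
  rcases h1 : (alb 364 fun q => Nat.beq (it (ap fl α) 7 q) q) with _ | _
  · rw [h1, cond_false] at h0; cases h0
  rw [h1, cond_true] at h0
  have e1 : (ev s α) ^ 7 = 1 := pow_eq_one_of (Rp.ev rp_s α) h1
  have hR : Rp (fun p => ap fl α.reverse (X p)) (ev s α.reverse * x) := by
    intro q
    show (((ev s α.reverse : A) : Equiv.Perm (Fin 364)) ((x : Equiv.Perm (Fin 364)) q) : ℕ) = _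
    rw [Rp.ev rp_s α.reverse, hX q]
  have e2 : (ev s α.reverse * x) ^ 7 = 1 := pow_eq_one_of hR h0
  refine ⟨ev s α, ev s α.reverse * x, by rw [ev_reverse s_sq, mul_inv_cancel_left], e1, ?_, e2, ?_⟩
  · intro hc
    have h4 := Rp.ev rp_s α (0 : Fin 364)
    rw [hc] at h4
    have h5 : ap fl α 0 = 0 := h4.symm
    rw [h5] at h2
    exact absurd h2 (by decide)
  · intro hc
    have h4 := hR (0 : Fin 364)
    rw [hc] at h4
    have h5 : ap fl α.reverse (X 0) = 0 := h4.symm
    rw [h5] at h3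
    exact absurd h3 (by decide)

theorem not_seven {X : ℕ → ℕ} {x : A} (hX : Rp X x) (q : Fin 364) (h : Nat.beq (it X 7 q) q = false) : x ^ 7 ≠ 1 := by
  intro hc
  have h1 := hX.it 7 q
  rw [hc] at h1
  have h2 : it X 7 q = q := h1.symm
  rw [h2, Nat.beq_refl] at h
  cases h

theorem v1 : sev c1.X [2, 3, 1, 5] = true := by decide +kernel
theorem v2 : sev c2.X [5, 4, 3, 1] = true := by decide +kernel
theorem v3 : sev c3.X [4, 3, 1, 5] = true := by decide +kernel
theorem v4 : sev c4.X [5, 1, 3, 4] = true := by decide +kernel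
theorem v5 : sev c5.X [2, 3, 1, 5] = true := by decide +kernel
theorem v6 : sev c6.X [0, 4, 1, 5, 3] = true := by decide +kernel
theorem v7 : sev c7.X [2, 3, 1, 5] = true := by decide +kernel
theorem v8 : sev c8.X [3, 1, 5, 2] = true := by decide +kernel
theorem v9 : sev c9.X [5, 4, 3, 1] = true := by decide +kernel
theorem v10 : sev c10.X [3, 2, 5, 1] = true := by decide +kernel
theorem v11 : sev c11.X [3, 2, 5, 1] = true := by decide +kernel
theorem v12 : sev c12.X [1, 3, 4, 5] = true := by decide +kernel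
theorem v13 : sev c13.X [1, 5, 2, 3] = true := by decide +kernel
theorem v14 : sev c14.X [1, 5, 4, 3] = true := by decide +kernel
theorem v15 : sev c15.X [3, 1, 5, 4] = true := by decide +kernel
theorem v16 : sev c16.X [1, 3, 2, 5] = true := by decide +kernel
theorem v17 : sev c17.X [2, 3, 1, 5] = true := by decide +kernel
theorem v18 : sev c18.X [1, 3, 4, 5] = true := by decide +kernel
theorem v19 : sev c19.X [1, 3, 2, 5] = true := by decide +kernel
theorem v20 : sev c20.X [3, 4, 5, 1] = true := by decide +kernel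
theorem v21 : sev c21.X [4, 3, 1, 5] = true := by decide +kernel
theorem v22 : sev c22.X [1, 3, 2, 5] = true := by decide +kernel

theorem n1 : Nat.beq (it c1.X 7 (0 : Fin 364)) (0 : Fin 364) = false := by decide +kernel
theorem n2 : Nat.beq (it c2.X 7 (0 : Fin 364)) (0 : Fin 364) = false := by decide +kernel
theorem n3 : Nat.beq (it c3.X 7 (0 : Fin 364)) (0 : Fin 364) = false := by decide +kernel
theorem n4 : Nat.beq (it c4.X 7 (0 : Fin 364)) (0 : Fin 364) = false := by decide +kernel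
theorem n5 : Nat.beq (it c5.X 7 (0 : Fin 364)) (0 : Fin 364) = false := by decide +kernel
theorem n6 : Nat.beq (it c6.X 7 (0 : Fin 364)) (0 : Fin 364) = false := by decide +kernel
theorem n7 : Nat.beq (it c7.X 7 (0 : Fin 364)) (0 : Fin 364) = false := by decide +kernel
theorem n8 : Nat.beq (it c8.X 7 (2 : Fin 364)) (2 : Fin 364) = false := by decide +kernel
theorem n9 : Nat.beq (it c9.X 7 (0 : Fin 364)) (0 : Fin 364) = false := by decide +kernel
theorem n10 : Nat.beq (it c10.X 7 (0 : Fin 364)) (0 : Fin 364) = false := by decide +kernel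
theorem n11 : Nat.beq (it c11.X 7 (0 : Fin 364)) (0 : Fin 364) = false := by decide +kernel
theorem n12 : Nat.beq (it c12.X 7 (0 : Fin 364)) (0 : Fin 364) = false := by decide +kernel
theorem n14 : Nat.beq (it c14.X 7 (0 : Fin 364)) (0 : Fin 364) = false := by decide +kernel
theorem n15 : Nat.beq (it c15.X 7 (0 : Fin 364)) (0 : Fin 364) = false := by decide +kernel
theorem n16 : Nat.beq (it c16.X 7 (0 : Fin 364)) (0 : Fin 364) = false := by decide +kernel
theorem n17 : Nat.beq (it c17.X 7 (0 : Fin 364)) (0 : Fin 364) = false := by decide +kernel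
theorem n18 : Nat.beq (it c18.X 7 (0 : Fin 364)) (0 : Fin 364) = false := by decide +kernel
theorem n19 : Nat.beq (it c19.X 7 (0 : Fin 364)) (0 : Fin 364) = false := by decide +kernel
theorem n20 : Nat.beq (it c20.X 7 (0 : Fin 364)) (0 : Fin 364) = false := by decide +kernel
theorem n21 : Nat.beq (it c21.X 7 (0 : Fin 364)) (0 : Fin 364) = false := by decide +kernel
theorem n22 : Nat.beq (it c22.X 7 (0 : Fin 364)) (0 : Fin 364) = false := by decide +kernel

/-- every nonidentity representative is a product of two elements of order 7 -/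
theorem lst_sev : ∀ p ∈ lst, p.1 ≠ 1 → ∃ a b : A, p.1 = a * b ∧ a ^ 7 = 1 ∧ a ≠ 1 ∧ b ^ 7 = 1 ∧ b ≠ 1 := by
  intro p hp h1
  have hR := lst_Rp p hp
  simp only [lst, List.mem_cons, List.not_mem_nil, or_false] at hp
  rcases hp with rfl | rfl | rfl | rfl | rfl | rfl | rfl | rfl | rfl | rfl | rfl | rfl | rfl | rfl | rfl | rfl | rfl | rfl | rfl | rfl | rfl | rfl | rfl
  exacts [absurd (by rw [wr_eq, ev_nil, mul_one, inv_one, mul_one, mul_inv_cancel]) h1, of_sev hR v1, of_sev hR v2, of_sev hR v3, of_sev hR v4, of_sev hR v5, of_sev hR v6, of_sev hR v7, of_sev hR v8, of_sev hR v9, of_sev hR v10, of_sev hR v11, of_sev hR v12, of_sev hR v13, of_sev hR v14, of_sev hR v15, of_sev hR v16, of_sev hR v17, of_sev hR v18, of_sev hR v19, of_sev hR v20, of_sev hR v21, of_sev hR v22]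

/-- the representative of order 7 -/
def x7 : A := ev s (wr [1, 5, 1])

theorem lst_seven : ∀ p ∈ lst, p.1 ≠ 1 → p.1 ^ 7 = 1 → p.1 = x7 := by
  intro p hp h1 h7
  have hR := lst_Rp p hp
  simp only [lst, List.mem_cons, List.not_mem_nil, or_false] at hp
  rcases hp with rfl | rfl | rfl | rfl | rfl | rfl | rfl | rfl | rfl | rfl | rfl | rfl | rfl | rfl | rfl | rfl | rfl | rfl | rfl | rfl | rfl | rfl | rfl
  exacts [absurd (by rw [wr_eq, ev_nil, mul_one, inv_one, mul_one, mul_inv_cancel]) h1, absurd h7 (not_seven hR 0 n1), absurd h7 (not_seven hR 0 n2), absurd h7 (not_seven hR 0 n3), absurd h7 (not_seven hR 0 n4), absurd h7 (not_seven hR 0 n5), absurd h7 (not_seven hR 0 n6), absurd h7 (not_seven hR 0 n7), absurd h7 (not_seven hR 2 n8), absurd h7 (not_seven hR 0 n9), absurd h7 (not_seven hR 0 n10), absurd h7 (not_seven hR 0 n11), absurd h7 (not_seven hR 0 n12), rfl, absurd h7 (not_seven hR 0 n14), absurd h7 (not_seven hR 0 n15), absurd h7 (not_seven hR 0 n16), absurd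 h7 (not_seven hR 0 n17), absurd h7 (not_seven hR 0 n18), absurd h7 (not_seven hR 0 n19), absurd h7 (not_seven hR 0 n20), absurd h7 (not_seven hR 0 n21), absurd h7 (not_seven hR 0 n22)]

theorem conj_seven {a : A} (h1 : a ≠ 1) (h7 : a ^ 7 = 1) : IsConj x7 a := by
  obtain ⟨p, hp, h⟩ := complete hbase ts lst lst_Rp lst_run lst_key lst_sum a
  obtain ⟨c, hc⟩ := isConj_iff.1 h
  have e1 : p.1 ≠ 1 := by
    intro hx
    apply h1
    rw [← hc, hx, mul_one, mul_inv_cancel]
  have e2 : p.1 ^ 7 = 1 := by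
    rw [← hc, conj_pow, mul_inv_eq_one, mul_eq_left] at h7
    exact h7
  rwa [lst_seven p hp e1 e2] at h

theorem x7_ne : x7 ≠ 1 := by
  intro hc
  obtain ⟨a, b, -, h2, h3, -, -⟩ := of_sev (Rp.of_tb rp_s t1) v1
  obtain ⟨c, h⟩ := isConj_iff.1 (conj_seven h3 h2)
  rw [hc, mul_one, mul_inv_cancel] at h
  exact h3 h.symm

theorem x7_pow : x7 ^ 7 = 1 := by
  obtain ⟨a, b, -, h2, h3, -, -⟩ := of_sev (Rp.of_tb rp_s t1) v1
  obtain ⟨c, h⟩ := isConj_iff.1 (conj_seven h3 h2)
  rw [← h, conj_pow, mul_inv_eq_one, mul_eq_left] at h2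
  exact h2

theorem orderOf_x7 : orderOf x7 = 7 := by
  have : Fact (Nat.Prime 7) := ⟨by norm_num⟩
  exact orderOf_eq_prime x7_pow x7_ne

theorem row3_A : Row3 A := by
  refine Row3.of_sq (x := x7) (by rw [orderOf_x7]; norm_num) (by rw [orderOf_x7]; norm_num) fun g hg => ?_
  obtain ⟨p, hp, h⟩ := complete hbase ts lst lst_Rp lst_run lst_key lst_sum g
  obtain ⟨c, hc⟩ := isConj_iff.1 h
  have e1 : p.1 ≠ 1 := by
    intro hx
    apply hg
    rw [← hc, hx, mul_one, mul_inv_cancel]
  obtain ⟨a, b, hab, ha, ha1, hb, hb1⟩ := lst_sev p hp e1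
  obtain ⟨u, hu⟩ := isConj_iff.1 (conj_seven ha1 ha)
  obtain ⟨v, hv⟩ := isConj_iff.1 (conj_seven hb1 hb)
  refine ⟨c * u, c * v, ?_⟩
  rw [← hc, hab, ← hu, ← hv]
  group

/-- **the row `G₂(3)`** -/
theorem row3_g2_three (F : Type) [Field F] [Fintype F] (hF : Fintype.card F = 3) :
    Row3 ↥(Lie.chevG2.group F) := by
  classical
  have σ : ZMod 3 ≃+* F := FiniteField.ringEquivOfCardEq (by rw [ZMod.card, hF])
  obtain ⟨e⟩ := iso.2.2
  exact row3_A.of_equiv (e.trans (ChevalleyStructure.FieldIso.groupEquiv Lie.chevG2 σ)).symm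

end Cfsg.Agent.H347.HX.G23
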