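import Cfsg.Agent.H347.TC.RegU
import Cfsg.Agent.S1059

/-!
# The classes of long root elements of `G₂(q)` (helper347)

`not_dvd_index`: the number of conjugates of `X 11 t` is prime to `p`.
-/

set_option autoImplicit false

open Cfsg Subgroup

namespace Cfsg.Agent.H347.TC.RegU

open Cfsg.Lie
open Cfsg.Agent.Omega.TwoF.GTwoLB (X rel0 X_comm)

universe u

variable {F : Type u} [Field F]

theorem comm11 {r : ℕ} (hr : 6 ≤ r) (hr' : r < 12) (t u : F) : Commute (X r u) (X 11 t) := by
  show X r u * X 11 t = X 11 t * X r u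
  interval_cases r
  · exact (rel0 (r := 6) (s := 11) (by norm_num) (by norm_num) (by decide) (by decide) (by decide +kernel) u t).symm
  · exact (rel0 (r := 7) (s := 11) (by norm_num) (by norm_num) (by decide) (by decide) (by decide +kernel) u t).symm
  · exact (rel0 (r := 8) (s := 11) (by norm_num) (by norm_num) (by decide) (by decide) (by decide +kernel) u t).symm
  · exact (rel0 (r := 9) (s := 11) (by norm_num) (by norm_num) (by decide) (by decide) (by decide +kernel) u t).symm
  · exact (rel0 (r := 10) (s := 11) (by norm_num) (by norm_num) (by decide) (by decide) (by decide +kernel) u t).symm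
  · exact X_comm 11 u t

theorem U_le_cent (t : F) : U F ≤ centralizer ({X 11 t} : Set ↥(chevG2.group F)) := by
  intro v hv
  obtain ⟨b, a, c, d, e, f, rfl⟩ := exists_w hv
  rw [mem_centralizer_singleton_iff]
  have h := ((((((comm11 (r := 6) (by norm_num) (by norm_num) t b).mul_left
    (comm11 (r := 7) (by norm_num) (by norm_num) t a)).mul_left
    (comm11 (r := 8) (by norm_num) (by norm_num) t c)).mul_left
    (comm11 (r := 9) (by norm_num) (by norm_num) t d)).mul_left
    (comm11 (r := 10) (by norm_num) (by norm_num) t e)).mul_left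
    (comm11 (r := 11) (by norm_num) (by norm_num) t f))
  exact h

/-- **`p` does not divide the number of conjugates of a long root element.** -/
theorem not_dvd_index [Finite F] (p : ℕ) [hp : Fact p.Prime] [CharP F p] (t : F) :
    ¬ p ∣ (centralizer ({X 11 t} : Set ↥(chevG2.group F))).index := by
  have := Fintype.ofFinite F
  have hfin : Finite ↥(chevG2.group F) := inferInstance
  have h1 : Nat.card F ^ 6 ∣ Nat.card (centralizer ({X 11 t} : Set ↥(chevG2.group F))) := by
    rw [← card_U]
    exact Subgroup.card_dvd_of_le (U_le_cent t)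
  obtain ⟨m, hm⟩ := h1
  have h2 := Subgroup.card_mul_index (centralizer ({X 11 t} : Set ↥(chevG2.group F)))
  have hF : Nat.card F = Fintype.card F := Nat.card_eq_fintype_card
  rw [S1059.result (q := Nat.card F) hF.symm, hm] at h2
  set q := Nat.card F with hq
  have hq1 : 1 < q := by rw [hF]; exact Fintype.one_lt_card
  intro hd
  obtain ⟨f, hf⟩ : p ∣ q := by
    obtain ⟨n, -, hn⟩ := FiniteField.card F p
    rw [hF, hn]
    exact dvd_pow_self p n.pos.ne'
  have h3 : m * (centralizer ({X 11 t} : Set ↥(chevG2.group F))).index = (q ^ 2 - 1) * (q ^ 6 - 1) := by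
    refine Nat.eq_of_mul_eq_mul_left (show 0 < q ^ 6 by positivity) ?_
    rw [← mul_assoc, h2, mul_assoc]
  have h4 : p ∣ (q ^ 2 - 1) * (q ^ 6 - 1) := h3 ▸ Dvd.dvd.mul_left hd m
  have key : ∀ k : ℕ, 0 < k → ¬ p ∣ q ^ k - 1 := by
    intro k hk h5
    have h6 : p ∣ q ^ k := (Dvd.intro f hf.symm).trans (dvd_pow_self q hk.ne')
    have h7 : 1 ≤ q ^ k := Nat.one_le_pow _ _ (by omega)
    have h8 := (Nat.dvd_sub h6 h5)
    rw [Nat.sub_sub_self h7] at h8
    exact hp.out.one_lt.ne' (Nat.dvd_one.1 h8)
  rcases (hp.out.dvd_mul).1 h4 with h | h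
  · exact key 2 (by norm_num) h
  · exact key 6 (by norm_num) h

end Cfsg.Agent.H347.TC.RegU
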